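import Cfsg.Agent.H916.RG.Pair

/-!
# S3509: triple covers, word certificates (helper147)

* `pc_prod`, `dead_prod`, `dead_step` : products of conjugates (after helper291);
* `TC N H a b c` : every `N`-conjugate of the triple has a member in `H`;
* `rce_of_triple` : three primes;
* `rce_inv` : the inverse automorphism.
-/

set_option autoImplicit false
set_option linter.unusedSectionVars false

namespace Cfsg.Agent.H147.RG

open Subgroup Cfsg.Agent.H106.RC Cfsg.Agent.H916.RG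

section

variable {A : Type*} [Group A] {N H : Subgroup A} {a b c : A}

theorem pc_prod (h : PC N H a b) : ∀ l : List A, (∀ n ∈ l, n ∈ N ∧ n * a = a * n) →
    PC N H a (l.map fun n => n * b * n⁻¹).prod
  | [], _ => fun s _ => Or.inr (by simp)
  | n :: l, hl => by
    rw [List.map_cons, List.prod_cons]
    exact (h.conj_right (hl n (by simp)).1 (hl n (by simp)).2).mul_right
      (pc_prod h l fun m hm => hl m (List.mem_cons_of_mem _ hm))

theorem dead_prod (hN : Nice N) (ha : a ≠ 1) (l : List A) (hl : ∀ n ∈ l, n ∈ N ∧ n * a = a * n) (k : ℕ)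
    (h : (l.map fun n => n * b * n⁻¹).prod ^ k = a) : Dead N a b := by
  intro H hH hP
  have h1 := (pc_prod hP l hl).pow_right k
  rw [h] at h1
  exact hN.absurd hH ha h1

theorem dead_step {y : A} (l : List A) (hl : ∀ n ∈ l, n ∈ N ∧ n * a = a * n) (k : ℕ)
    (h : (l.map fun n => n * b * n⁻¹).prod ^ k = y) (hD : Dead N a y) : Dead N a b := by
  intro H hH hP
  have h1 := (pc_prod hP l hl).pow_right k
  rw [h] at h1
  exact hD H hH h1

/-- every `N`-conjugate of the triple `(a, b, c)` has a member in `H` -/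
def TC (N H : Subgroup A) (a b c : A) : Prop := ∀ s ∈ N, s * a * s⁻¹ ∈ H ∨ s * b * s⁻¹ ∈ H ∨ s * c * s⁻¹ ∈ H

/-- exchange of the last two members -/
theorem TC.swap (h : TC N H a b c) : TC N H a c b := fun s hs => (h s hs).imp id Or.symm

theorem TC.mul {d : A} (h : TC N H a b c) (h' : TC N H a b d) : TC N H a b (c * d) := by
  intro s hs
  rcases h s hs with h1 | h1 | h1
  · exact Or.inl h1
  · exact Or.inr (Or.inl h1)
  rcases h' s hs with h2 | h2 | h2
  · exact Or.inl h2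
  · exact Or.inr (Or.inl h2)
  · refine Or.inr (Or.inr ?_)
    have e : s * (c * d) * s⁻¹ = (s * c * s⁻¹) * (s * d * s⁻¹) := by group
    rw [e]
    exact H.mul_mem h1 h2

theorem TC.pow (h : TC N H a b c) (k : ℕ) : TC N H a b (c ^ k) := by
  intro s hs
  rcases h s hs with h1 | h1 | h1
  · exact Or.inl h1
  · exact Or.inr (Or.inl h1)
  · refine Or.inr (Or.inr ?_)
    rw [← conj_pow]
    exact H.pow_mem h1 k

theorem TC.conj (h : TC N H a b c) {n : A} (hn : n ∈ N) (ha : n * a = a * n) (hb : n * b = b * n) :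
    TC N H a b (n * c * n⁻¹) := by
  intro s hs
  have key : ∀ z : A, n * z = z * n → s * n * z * (s * n)⁻¹ = s * z * s⁻¹ := by
    intro z hz
    calc s * n * z * (s * n)⁻¹ = s * (n * z) * n⁻¹ * s⁻¹ := by group
      _ = s * z * s⁻¹ := by rw [hz]; group
  rcases h (s * n) (N.mul_mem hs hn) with h1 | h1 | h1
  · rw [key a ha] at h1; exact Or.inl h1
  · rw [key b hb] at h1; exact Or.inr (Or.inl h1)
  · refine Or.inr (Or.inr ?_)
    have e : s * (n * c * n⁻¹) * s⁻¹ = s * n * c * (s * n)⁻¹ := by group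
    rwa [e]

theorem TC.prod (h : TC N H a b c) : ∀ l : List A, (∀ n ∈ l, n ∈ N ∧ n * a = a * n) →
    (∀ n ∈ l, n ∈ N ∧ n * b = b * n) → TC N H a b (l.map fun n => n * c * n⁻¹).prod
  | [], _, _ => fun s _ => Or.inr (Or.inr (by simp))
  | n :: l, hl, hl' => by
    rw [List.map_cons, List.prod_cons]
    exact (h.conj (hl n (by simp)).1 (hl n (by simp)).2 (hl' n (by simp)).2).mul
      (TC.prod h l (fun m hm => hl m (List.mem_cons_of_mem _ hm)) fun m hm => hl' m (List.mem_cons_of_mem _ hm))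

theorem TC.toPC (h : TC N H a b a) : PC N H a b := fun s hs => by
  rcases h s hs with h1 | h1 | h1
  · exact Or.inl h1
  · exact Or.inr h1
  · exact Or.inl h1

end

section RCe

variable {S : Type*} [Group S]

/-- a cover by the members of prime order -/
theorem rce_of_cov {g : MulAut S} {m : ℕ} (hm : orderOf g = m) (hm0 : m ≠ 0)
    (hD : ∀ H : Subgroup (MulAut S), ¬ (MulAut.conj : S →* MulAut S).range ≤ H →
      ¬ ∀ s : S, ∃ r : ℕ, r.Prime ∧ r ∣ m ∧ MulAut.conj s * g ^ (m / r) * (MulAut.conj s)⁻¹ ∈ H) : RCe S g := by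
  intro H hH
  by_contra hcon
  push Not at hcon
  refine hD H hH ?_
  intro s
  obtain ⟨z, hz, hzH, hz1⟩ := hcon s
  obtain ⟨l, rfl⟩ := Subgroup.mem_zpowers_iff.1 hz
  obtain ⟨k, hk⟩ : ∃ k : ℕ, g ^ k = g ^ l := by
    have hg : IsOfFinOrder g := orderOf_pos_iff.1 (by rw [hm]; omega)
    obtain ⟨k, hk⟩ := (hg.mem_powers_iff_mem_zpowers (y := g ^ l)).2 ⟨l, rfl⟩
    exact ⟨k, hk⟩
  have hd : Nat.gcd k m ∣ m := Nat.gcd_dvd_right k m
  have hdm : m / Nat.gcd k m ≠ 1 := by
    intro h1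
    have h2 : Nat.gcd k m = m := by
      have h3 := Nat.div_mul_cancel hd
      rw [h1, one_mul] at h3
      exact h3
    have h3 : m ∣ k := h2 ▸ Nat.gcd_dvd_left k m
    apply hz1
    rw [← hk]
    exact orderOf_dvd_iff_pow_eq_one.1 (hm ▸ h3)
  obtain ⟨r, hr, hrz⟩ := Nat.exists_prime_and_dvd hdm
  have hrm : r ∣ m := hrz.trans (Nat.div_dvd_of_dvd hd)
  have key : g ^ (m / r) ∈ zpowers (g ^ l) := by
    have h1 : g ^ Nat.gcd k m ∈ zpowers (g ^ l) := by
      refine ⟨Nat.gcdA k m, ?_⟩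
      have h2 : (g ^ l) ^ Nat.gcdA k m = g ^ ((Nat.gcd k m : ℕ) : ℤ) := by
        rw [← hk, Nat.gcd_eq_gcd_ab, zpow_add, zpow_mul, zpow_mul, zpow_natCast, zpow_natCast, ← hm,
          pow_orderOf_eq_one, one_zpow, mul_one]
      rw [zpow_natCast] at h2
      exact h2
    obtain ⟨e, he⟩ := hrz
    have hd0 : 0 < Nat.gcd k m := Nat.pos_of_ne_zero fun h => hm0 (Nat.eq_zero_of_zero_dvd (h ▸ hd))
    have h2 : m = Nat.gcd k m * (r * e) := by rw [← he, Nat.mul_div_cancel' hd]
    have h3 : m / r = Nat.gcd k m * e := by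
      apply Nat.div_eq_of_eq_mul_left hr.pos
      calc m = Nat.gcd k m * (r * e) := h2
        _ = Nat.gcd k m * e * r := by ring
    rw [h3, pow_mul]
    exact Subgroup.pow_mem _ h1 e
  obtain ⟨i, hi⟩ := key
  refine ⟨r, hr, hrm, ?_⟩
  have h7 : (g ^ l) ^ i = g ^ (m / r) := hi
  rw [← h7, ← conj_zpow]
  exact H.zpow_mem hzH i

/-- inner automorphisms, three primes -/
theorem rce_of_triple (hS : IsSimpleGroup S) (hSn : ¬ IsMulCommutative S) {x : S} {m p q t : ℕ}
    (hm : orderOf x = m) (hm0 : m ≠ 0) (hpr : ∀ r : ℕ, r.Prime → r ∣ m → r = p ∨ r = q ∨ r = t)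
    (hD : ∀ H : Subgroup S, ¬ (⊤ : Subgroup S) ≤ H → ¬ TC ⊤ H (x ^ (m / p)) (x ^ (m / q)) (x ^ (m / t))) :
    RCe S (MulAut.conj x) := by
  refine rce_of_cov (m := m) (by rw [orderOf_injective _ (conj_injective hS hSn), hm]) hm0 fun H hH hcov => ?_
  refine hD (H.comap MulAut.conj) (fun hle => hH ?_) fun s _ => ?_
  · rintro _ ⟨s, rfl⟩
    exact hle (Subgroup.mem_top s)
  · obtain ⟨r, hr, hrm, h⟩ := hcov s
    have e : ∀ j : ℕ, MulAut.conj s * MulAut.conj x ^ j * (MulAut.conj s)⁻¹ = MulAut.conj (s * x ^ j * s⁻¹) := by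
      intro j
      rw [map_mul, map_mul, map_inv, map_pow]
    rw [e] at h
    rcases hpr r hr hrm with rfl | rfl | rfl
    · exact Or.inl h
    · exact Or.inr (Or.inl h)
    · exact Or.inr (Or.inr h)

/-- the inverse -/
theorem rce_inv {g : MulAut S} (h : RCe S g) : RCe S g⁻¹ := by
  intro H hH
  obtain ⟨s, hs⟩ := h H hH
  refine ⟨s, fun z hz => hs z ?_⟩
  rwa [Subgroup.zpowers_inv] at hz

end RCe

end Cfsg.Agent.H147.RG
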